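import Cfsg.Agent.R1T.Base
set_option autoImplicit false
set_option linter.all false

namespace Cfsg.Agent.R1T

open Subgroup Cfsg MulAction

/-- rank one data from an action on "vectors" with scalars `K` -/
theorem R1.of_action {Γ Ω K : Type*} [Group Γ] [Finite Γ] [MulAction Γ Ω] [Finite Ω] [CommGroup K] [Finite K]
    [IsCyclic K] [MulAction K Ω] [SMulCommClass Γ K Ω] {p : ℕ} [hp : Fact p.Prime]
    (hΩ : ¬ p ∣ Nat.card Ω) (hfree : ∀ (k : K) (w : Ω), k • w = w → k = 1)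
    (hst : ∀ w : Ω, IsPGroup p (stabilizer Γ w)) (u v : Ω) (hne : ∀ w : Ω, ∃ g : Γ, g ≠ 1 ∧ g • w = w)
    (hd : ∀ g : Γ, g ≠ 1 → ∀ w w' : Ω, g • w = w → g • w' = w' → ∃ k : K, w' = k • w)
    (ht : ∀ w : Ω, (∃ k : K, w = k • u) ∨ ∃ (k : K) (g : Γ), g • u = u ∧ g • v = k • w)
    (hr : ∀ (g : Γ) (k : K), g • u = u → g • v = k • v → g = 1)
    (h : Γ) (a b : K) (hu : h • u = a • u) (hv : h • v = b • v) (ha : a ^ (p - 1) = 1)
    (hc : ∀ g : Γ, g • u = u → h * g = g * h → g = 1)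
    (hgen : ∀ M : Subgroup Γ, (∀ x : Γ, ∀ k : ℕ, x ^ p ^ k = 1 → x ∈ M) → M = ⊤) : R1 p Γ := by
  have hstk : ∀ (k : K) (w : Ω), stabilizer Γ (k • w) = stabilizer Γ w := by
    intro k w
    ext g
    rw [mem_stabilizer_iff, mem_stabilizer_iff, smul_comm]
    exact smul_left_cancel_iff k
  have hsyl : ∀ w : Ω, ∃ W : Sylow p Γ, (W : Subgroup Γ) = stabilizer Γ w := by
    intro w
    obtain ⟨W, hW⟩ := (hst w).exists_le_sylow
    obtain ⟨w', hw'⟩ := W.2.nonempty_fixed_point_of_prime_not_dvd_card Ω hΩ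
    obtain ⟨g, hg1, hg⟩ := hne w
    obtain ⟨k, rfl⟩ := hd g hg1 w w' hg (hw' ⟨g, hW hg⟩)
    refine ⟨W, le_antisymm ?_ hW⟩
    intro x hx
    have h1 : x • (k • w) = k • w := hw' ⟨x, hx⟩
    rw [← hstk k w]
    exact h1
  have hsyl' : ∀ W : Sylow p Γ, ∃ w : Ω, (W : Subgroup Γ) = stabilizer Γ w := by
    intro W
    obtain ⟨w, hw⟩ := W.2.nonempty_fixed_point_of_prime_not_dvd_card Ω hΩ
    refine ⟨w, ?_⟩
    have h1 : (W : Subgroup Γ) ≤ stabilizer Γ w := fun x hx => hw ⟨x, hx⟩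
    exact (W.3 (hst w) h1).symm
  have hnorm : ∀ (w : Ω) (g : Γ), g ∈ normalizer ((stabilizer Γ w : Subgroup Γ) : Set Γ) ↔ ∃ k : K, g • w = k • w := by
    intro w g
    constructor
    · intro hg
      obtain ⟨x, hx1, hx⟩ := hne w
      have h1 := (mem_normalizer_iff.1 (inv_mem hg) x).1 hx
      rw [inv_inv] at h1
      have h2 : (g⁻¹ * x * g) • w = w := h1
      have h3 : x • (g • w) = g • w := by
        rw [mul_smul, mul_smul] at h2
        exact inv_smul_eq_iff.1 h2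
      exact hd x hx1 w (g • w) hx h3
    · rintro ⟨k, hk⟩
      apply mem_norm
      intro y hy
      have hy' : y • w = w := hy
      show (g * y * g⁻¹) • w = w
      have h1 : g⁻¹ • w = k⁻¹ • w := by
        rw [inv_smul_eq_iff, smul_comm, hk, inv_smul_smul]
      rw [mul_smul, mul_smul, h1, smul_comm y, hy', smul_comm g, hk, inv_smul_smul]
  obtain ⟨U, hU⟩ := hsyl u
  obtain ⟨V, hV⟩ := hsyl v
  refine ⟨U, V, h, ?_, ?_, ?_, ?_, ?_, ?_, ?_, ?_, hgen⟩
  · intro h0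
    obtain ⟨g, hg1, hg⟩ := hne u
    have : g ∈ (U : Subgroup Γ) := by rw [hU]; exact hg
    rw [h0] at this
    exact hg1 (mem_bot.1 this)
  · rw [hU, hnorm]; exact ⟨a, hu⟩
  · rw [hV, hnorm]; exact ⟨b, hv⟩
  · rw [hU, hV]
    intro x hx hxV
    obtain ⟨k, hk⟩ := (hnorm v x).1 hxV
    exact hr x k hx hk
  · rw [hU]
    intro x hx hxh
    exact hc x hx hxh
  · intro W
    obtain ⟨w, hw⟩ := hsyl' W
    rcases ht w with ⟨k, rfl⟩ | ⟨k, g, hgu, hgv⟩
    · left
      apply Sylow.ext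
      rw [hw, hU, hstk]
    · right
      refine ⟨g, by rw [hU]; exact hgu, ?_⟩
      apply Sylow.ext
      rw [hw, ← hstk k w, ← hgv, Sylow.coe_subgroup_smul, hV]
      ext x
      rw [mem_stabilizer_iff, Subgroup.mem_pointwise_smul_iff_inv_smul_mem, MulAut.smul_def, ← map_inv,
        MulAut.conj_apply, inv_inv, mem_stabilizer_iff, mul_smul, mul_smul, inv_smul_eq_iff]
  · -- cyclic
    let H : Subgroup K :=
      { carrier := {k | ∃ g : Γ, g • u = k • u}
        one_mem' := ⟨1, by rw [one_smul, one_smul]⟩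
        mul_mem' := by
          rintro k l ⟨g, hg⟩ ⟨g', hg'⟩
          refine ⟨g * g', ?_⟩
          rw [mul_smul, hg', smul_comm, hg, ← mul_smul, mul_comm l k]
        inv_mem' := by
          rintro k ⟨g, hg⟩
          refine ⟨g⁻¹, ?_⟩
          rw [inv_smul_eq_iff, smul_comm, hg, inv_smul_smul] }
    obtain ⟨⟨k₀, c, hc₀⟩, hk₀⟩ := IsCyclic.exists_generator (α := H)
    refine ⟨c, ?_, ?_⟩
    · rw [hU, hnorm]; exact ⟨k₀, hc₀⟩
    · intro x hx
      rw [hU, hnorm] at hx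
      obtain ⟨k, hk⟩ := hx
      have h1 := hk₀ ⟨k, x, hk⟩
      rw [← mem_powers_iff_mem_zpowers] at h1
      obtain ⟨n, hn⟩ := h1
      have hn' : k₀ ^ n = k := congrArg Subtype.val hn
      have h2 : ∀ n : ℕ, c ^ n • u = k₀ ^ n • u := by
        intro n
        induction n with
        | zero => rw [pow_zero, pow_zero, one_smul, one_smul]
        | succ n ih => rw [pow_succ, mul_smul, hc₀, smul_comm, ih, ← mul_smul, ← pow_succ']
      refine ⟨n, (c ^ n)⁻¹ * x, ?_, ?_⟩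
      · rw [hU, mem_stabilizer_iff, mul_smul, hk, ← hn', inv_smul_eq_iff, h2]
      · rw [zpow_natCast]; group
  · rw [hU, mem_stabilizer_iff]
    have h2 : ∀ n : ℕ, h ^ n • u = a ^ n • u := by
      intro n
      induction n with
      | zero => rw [pow_zero, pow_zero, one_smul, one_smul]
      | succ n ih => rw [pow_succ, mul_smul, hu, smul_comm, ih, ← mul_smul, ← pow_succ']
    rw [h2, ha, one_smul]

end Cfsg.Agent.R1T
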