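import Mathlib
import Cfsg.Prelude.Def_Local
import Cfsg.Agent.Solv.Core
set_option autoImplicit false
set_option linter.all false

/-!
# Rank one data with a torus element of order dividing `p - 1`

`R1 p E`: a group `E` generated by its `p`-elements, whose Sylow `p`-subgroups are `U` and the `U`-conjugates of `V`,
with an element `h` normalizing `U` and `V`, acting fixed-point-freely on `U`, with `h ^ (p - 1) ∈ U` and `N(U)/U`
cyclic.  `main`: if `E` is normal in `P`, `P/E` a `p`-group, `O_p(P) = 1`, then a Sylow `p`-subgroup `S` of `P` has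
`S ∩ Z(N(S)) = 1`.
-/

namespace Cfsg.Agent.R1T

open Subgroup Cfsg

/-- rank one data -/
def R1 (p : ℕ) (E : Type*) [Group E] : Prop :=
  ∃ (U V : Sylow p E) (h : E), (U : Subgroup E) ≠ ⊥ ∧
    h ∈ normalizer ((U : Subgroup E) : Set E) ∧ h ∈ normalizer ((V : Subgroup E) : Set E) ∧
    (∀ u ∈ (U : Subgroup E), u ∈ normalizer ((V : Subgroup E) : Set E) → u = 1) ∧
    (∀ u ∈ (U : Subgroup E), h * u = u * h → u = 1) ∧
    (∀ W : Sylow p E, W = U ∨ ∃ u ∈ (U : Subgroup E), W = u • V) ∧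
    (∃ c ∈ normalizer ((U : Subgroup E) : Set E), ∀ b ∈ normalizer ((U : Subgroup E) : Set E),
      ∃ k : ℤ, ∃ u ∈ (U : Subgroup E), b = c ^ k * u) ∧
    h ^ (p - 1) ∈ (U : Subgroup E) ∧
    (∀ M : Subgroup E, (∀ x : E, ∀ k : ℕ, x ^ p ^ k = 1 → x ∈ M) → M = ⊤)

theorem fix_of_cyclic {X : Type*} [Group X] [Finite X] {p : ℕ} [hp : Fact p.Prime] (B : Subgroup X) [B.Normal]
    (c : X) (hcB : c ∈ B) (hc : ∀ b ∈ B, ∃ k : ℤ, b = c ^ k) (h : X) (hh : h ∈ B) (hh1 : h ^ (p - 1) = 1)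
    (s : X) (k : ℕ) (hs : s ^ p ^ k = 1) : s * h * s⁻¹ = h := by
  haveI : IsCyclic B := ⟨⟨⟨c, hcB⟩, fun b => by
    obtain ⟨k, hk⟩ := hc b b.2
    exact ⟨k, Subtype.ext hk.symm⟩⟩⟩
  obtain ⟨m, hm⟩ := (MulAut.conjNormal s : MulAut B).toMonoidHom.map_cyclic
  have hm' : ∀ b ∈ B, s * b * s⁻¹ = b ^ m := by
    intro b hb
    have := congrArg Subtype.val (hm ⟨b, hb⟩)
    exact this
  have hj : ∀ j : ℕ, s ^ j * h * (s ^ j)⁻¹ = h ^ (m ^ j) := by
    intro j
    induction j with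
    | zero => simp
    | succ j ih =>
      have e : s ^ (j + 1) * h * (s ^ (j + 1))⁻¹ = s * (s ^ j * h * (s ^ j)⁻¹) * s⁻¹ := by
        rw [pow_succ']; group
      rw [e, ih, hm' _ (zpow_mem hh _), ← zpow_mul, pow_succ]
  have h1 := hj (p ^ k)
  rw [hs, one_mul, inv_one, mul_one] at h1
  have hd : orderOf h ∣ p - 1 := orderOf_dvd_of_pow_eq_one hh1
  have hd0 : 0 < orderOf h := orderOf_pos h
  have hp1 : 0 < p - 1 := Nat.sub_pos_of_lt hp.out.one_lt
  haveI : NeZero (orderOf h) := ⟨hd0.ne'⟩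
  have h2 : (1 : ℤ) ≡ m ^ p ^ k [ZMOD orderOf h] := by
    rw [← zpow_eq_zpow_iff_modEq, zpow_one]; exact h1
  have h3 : ((m : ZMod (orderOf h))) ^ p ^ k = 1 := by
    have := (ZMod.intCast_eq_intCast_iff _ _ _).2 h2
    push_cast at this
    exact this.symm
  have h4 : (m : ZMod (orderOf h)) = 1 := by
    obtain ⟨u, hu⟩ : ∃ u : (ZMod (orderOf h))ˣ, (u : ZMod (orderOf h)) = m :=
      ⟨Units.ofPowEqOne _ _ h3 (pow_ne_zero _ hp.out.ne_zero), rfl⟩
    have h5 : u ^ p ^ k = 1 := by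
      apply Units.ext
      rw [Units.val_pow_eq_pow_val, hu, h3, Units.val_one]
    have h6 : orderOf u ∣ p ^ k := orderOf_dvd_of_pow_eq_one h5
    have h7 : orderOf u ∣ Nat.totient (orderOf h) := by
      rw [← ZMod.card_units_eq_totient]
      exact orderOf_dvd_card
    have h8 : ¬ p ∣ orderOf u := by
      intro hpu
      have h9 := Nat.le_of_dvd (Nat.totient_pos.2 hd0) (hpu.trans h7)
      have h10 := Nat.totient_le (orderOf h)
      have h11 := Nat.le_of_dvd hp1 hd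
      omega
    obtain ⟨j, hj1, hj2⟩ := (Nat.dvd_prime_pow hp.out).1 h6
    have h12 : orderOf u = 1 := by
      rcases Nat.eq_zero_or_pos j with rfl | hj0
      · simpa using hj2
      · exact absurd (by rw [hj2]; exact dvd_pow_self p hj0.ne') h8
    rw [orderOf_eq_one_iff] at h12
    rw [← hu, h12, Units.val_one]
  have h5 : m ≡ 1 [ZMOD orderOf h] := by
    rw [← ZMod.intCast_eq_intCast_iff]
    rw [h4]; simp
  rw [hm' h hh]
  have h6 := (zpow_eq_zpow_iff_modEq (x := h)).2 h5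
  rw [h6, zpow_one]

section

variable {E : Type*} [Group E] [Finite E] {p : ℕ} [hp : Fact p.Prime]

omit hp in
theorem mem_norm {H : Subgroup E} {x : E} (hx : ∀ y ∈ H, x * y * x⁻¹ ∈ H) : x ∈ normalizer (H : Set E) := by
  have h1 : H.map (MulAut.conj x).toMonoidHom = H := by
    apply Subgroup.eq_of_le_of_card_ge
    · rintro _ ⟨y, hy, rfl⟩
      exact hx y hy
    · rw [Subgroup.card_map_of_injective (MulAut.conj x).injective]
  exact mem_normalizer_iff_map_conj_eq.2 h1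

omit [Finite E] in
/-- a `p`-element normalizing a Sylow subgroup lies in it -/
theorem mem_of_normalizes (W : Sylow p E) {x : E} {k : ℕ} (hx : x ^ p ^ k = 1)
    (hxW : x ∈ normalizer ((W : Subgroup E) : Set E)) : x ∈ (W : Subgroup E) := by
  have hz : IsPGroup p (zpowers x) := by
    rintro ⟨_, i, rfl⟩
    refine ⟨k, Subtype.ext ?_⟩
    show (x ^ i) ^ p ^ k = 1
    rw [← zpow_natCast, ← zpow_mul, mul_comm, zpow_mul, zpow_natCast, hx, one_zpow]
  have h1 : IsPGroup p (zpowers x ⊔ (W : Subgroup E) : Subgroup E) :=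
    IsPGroup.to_sup_of_normal_right' hz W.2 (zpowers_le.2 hxW)
  have h2 := W.3 h1 le_sup_right
  rw [← h2]
  exact mem_sup_left (mem_zpowers x)

/-- every `p`-element lies in a Sylow subgroup -/
theorem exists_sylow_mem {x : E} {k : ℕ} (hx : x ^ p ^ k = 1) : ∃ W : Sylow p E, x ∈ (W : Subgroup E) := by
  have hz : IsPGroup p (zpowers x) := by
    rintro ⟨_, i, rfl⟩
    refine ⟨k, Subtype.ext ?_⟩
    show (x ^ i) ^ p ^ k = 1
    rw [← zpow_natCast, ← zpow_mul, mul_comm, zpow_mul, zpow_natCast, hx, one_zpow]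
  obtain ⟨W, hW⟩ := hz.exists_le_sylow
  exact ⟨W, hW (mem_zpowers x)⟩

theorem center_trivial {U V : Sylow p E}
    (hUV : ∀ u ∈ (U : Subgroup E), u ∈ normalizer ((V : Subgroup E) : Set E) → u = 1)
    {x : E} (hx : ∀ y, x * y = y * x) {k : ℕ} (hxk : x ^ p ^ k = 1) : x = 1 := by
  have hN : ∀ W : Sylow p E, x ∈ normalizer ((W : Subgroup E) : Set E) := by
    intro W
    rw [mem_normalizer_iff]
    intro y
    rw [hx y, mul_inv_cancel_right]
  exact hUV x (mem_of_normalizes U hxk (hN U)) (hN V)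

theorem isP_pow {W : Sylow p E} {x : E} (hx : x ∈ (W : Subgroup E)) : ∃ k, x ^ p ^ k = 1 := by
  obtain ⟨k, hk⟩ := W.2 ⟨x, hx⟩
  exact ⟨k, congrArg Subtype.val hk⟩

/-- quotients by central subgroups -/
theorem R1.of_surj (hR : R1 p E) {E' : Type*} [Group E'] [Finite E'] (π : E →* E') (hπ : Function.Surjective π)
    (hker : ∀ x, π x = 1 → ∀ y, x * y = y * x) : R1 p E' := by
  obtain ⟨U, V, h, hU, hhU, hhV, hUV, hfp, hW, ⟨c, hcU, hc⟩, hh, hgen⟩ := hR
  -- normalizers lift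
  have hlift : ∀ (W : Sylow p E) (x : E), π x ∈ normalizer (((W : Subgroup E).map π : Subgroup E') : Set E') →
      x ∈ normalizer ((W : Subgroup E) : Set E) := by
    intro W x hx
    have key : ∀ y ∈ (W : Subgroup E), x * y * x⁻¹ ∈ (W : Subgroup E) := by
      intro y hy
      have h1 : π (x * y * x⁻¹) ∈ (W : Subgroup E).map π := by
        rw [map_mul, map_mul, map_inv]
        exact (mem_normalizer_iff.1 hx (π y)).1 ⟨y, hy, rfl⟩
      obtain ⟨w, hw, hw1⟩ := h1
      have h2 : π (w⁻¹ * (x * y * x⁻¹)) = 1 := by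
        rw [map_mul, map_inv, hw1, inv_mul_cancel]
      have h3 := hker _ h2
      obtain ⟨k, hk⟩ := isP_pow hy
      obtain ⟨l, hl⟩ := isP_pow hw
      have h4 : x * y * x⁻¹ = w * (w⁻¹ * (x * y * x⁻¹)) := by group
      generalize w⁻¹ * (x * y * x⁻¹) = z at h2 h3 h4
      have h5 : z ^ p ^ (k + l) = 1 := by
        have h6 : (x * y * x⁻¹) ^ p ^ (k + l) = 1 := by
          rw [conj_pow, pow_add, pow_mul, hk, one_pow]; group
        have h7 : w ^ p ^ (k + l) = 1 := by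
          rw [add_comm, pow_add, pow_mul, hl, one_pow]
        have h8 : (w * z) ^ p ^ (k + l) = w ^ p ^ (k + l) * z ^ p ^ (k + l) :=
          Commute.mul_pow (show Commute w z from (h3 w).symm) _
        rw [← h4, h6, h7, one_mul] at h8
        exact h8.symm
      have h9 := center_trivial hUV h3 h5
      rw [h4, h9, mul_one]
      exact hw
    exact mem_norm key
  -- the central kernel meets Sylow subgroups trivially
  have hkerp : ∀ x, π x = 1 → ∀ W : Sylow p E, x ∈ (W : Subgroup E) → x = 1 := by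
    intro x hx W hxW
    obtain ⟨k, hk⟩ := isP_pow hxW
    exact center_trivial hUV (hker x hx) hk
  refine ⟨U.mapSurjective hπ, V.mapSurjective hπ, π h, ?_, ?_, ?_, ?_, ?_, ?_, ?_, ?_, ?_⟩
  · intro h0
    apply hU
    rw [eq_bot_iff]
    intro x hx
    have h1 : π x ∈ (U : Subgroup E).map π := ⟨x, hx, rfl⟩
    rw [Sylow.coe_mapSurjective] at h0
    rw [h0] at h1
    exact mem_bot.2 (hkerp x (mem_bot.1 h1) U hx)
  · rw [Sylow.coe_mapSurjective]
    apply mem_norm
    rintro _ ⟨y, hy, rfl⟩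
    exact ⟨h * y * h⁻¹, (mem_normalizer_iff.1 hhU y).1 hy, by rw [map_mul, map_mul, map_inv]⟩
  · rw [Sylow.coe_mapSurjective]
    apply mem_norm
    rintro _ ⟨y, hy, rfl⟩
    exact ⟨h * y * h⁻¹, (mem_normalizer_iff.1 hhV y).1 hy, by rw [map_mul, map_mul, map_inv]⟩
  · rw [Sylow.coe_mapSurjective, Sylow.coe_mapSurjective]
    rintro _ ⟨u, hu, rfl⟩ hn
    rw [hUV u hu (hlift V u hn), map_one]
  · rw [Sylow.coe_mapSurjective]
    rintro _ ⟨u, hu, rfl⟩ hn
    have h1 : π (h * u * h⁻¹ * u⁻¹) = 1 := by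
      rw [map_mul, map_mul, map_mul, map_inv, map_inv, hn]; group
    have h2 : h * u * h⁻¹ * u⁻¹ ∈ (U : Subgroup E) := mul_mem ((mem_normalizer_iff.1 hhU u).1 hu) (inv_mem hu)
    have h3 := hkerp _ h1 U h2
    rw [hfp u hu (by
      rw [mul_inv_eq_one, mul_inv_eq_iff_eq_mul] at h3
      exact h3), map_one]
  · intro W'
    obtain ⟨W, rfl⟩ := Sylow.mapSurjective_surjective hπ p W'
    rcases hW W with rfl | ⟨u, hu, rfl⟩
    · exact Or.inl rfl
    · refine Or.inr ⟨π u, ⟨u, hu, rfl⟩, ?_⟩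
      apply Sylow.ext
      rw [Sylow.coe_mapSurjective, Sylow.coe_subgroup_smul, Sylow.coe_subgroup_smul, Sylow.coe_mapSurjective]
      ext y
      constructor
      · rintro ⟨_, ⟨v, hv, rfl⟩, rfl⟩
        exact ⟨π v, ⟨v, hv, rfl⟩, by
          show π u * π v * (π u)⁻¹ = π (u * v * u⁻¹)
          rw [map_mul, map_mul, map_inv]⟩
      · rintro ⟨_, ⟨v, hv, rfl⟩, rfl⟩
        exact ⟨u * v * u⁻¹, ⟨v, hv, rfl⟩, by
          show π (u * v * u⁻¹) = π u * π v * (π u)⁻¹
          rw [map_mul, map_mul, map_inv]⟩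
  · rw [Sylow.coe_mapSurjective]
    refine ⟨π c, ?_, ?_⟩
    · apply mem_norm
      rintro _ ⟨y, hy, rfl⟩
      exact ⟨c * y * c⁻¹, (mem_normalizer_iff.1 hcU y).1 hy, by rw [map_mul, map_mul, map_inv]⟩
    · intro b' hb'
      obtain ⟨b, rfl⟩ := hπ b'
      obtain ⟨k, u, hu, rfl⟩ := hc b (hlift U b hb')
      exact ⟨k, π u, ⟨u, hu, rfl⟩, by rw [map_mul, map_zpow]⟩
  · rw [Sylow.coe_mapSurjective]
    exact ⟨h ^ (p - 1), hh, by rw [map_pow]⟩
  · intro M hM
    have h1 := hgen (M.comap π) (fun x k hx => hM (π x) k (by rw [← map_pow, hx, map_one]))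
    rw [eq_top_iff]
    intro y _
    obtain ⟨x, rfl⟩ := hπ y
    have : x ∈ M.comap π := by rw [h1]; exact mem_top x
    exact this

end

end Cfsg.Agent.R1T
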