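import Cfsg.Agent.R1T.Base
set_option autoImplicit false
set_option linter.all false

namespace Cfsg.Agent.R1T

open Subgroup Cfsg

/-- an automorphism fixing `U` elementwise and `h`, and with `h` and `U` rank one data, is trivial -/
theorem aut_trivial {E : Type*} [Group E] [Finite E] {p : ℕ} [hp : Fact p.Prime] {U V : Sylow p E} {h : E}
    (hU : (U : Subgroup E) ≠ ⊥)
    (hhU : h ∈ normalizer ((U : Subgroup E) : Set E)) (hhV : h ∈ normalizer ((V : Subgroup E) : Set E))
    (hUV : ∀ u ∈ (U : Subgroup E), u ∈ normalizer ((V : Subgroup E) : Set E) → u = 1)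
    (hfp : ∀ u ∈ (U : Subgroup E), h * u = u * h → u = 1)
    (hW : ∀ W : Sylow p E, W = U ∨ ∃ u ∈ (U : Subgroup E), W = u • V)
    (hgen : ∀ M : Subgroup E, (∀ x : E, ∀ k : ℕ, x ^ p ^ k = 1 → x ∈ M) → M = ⊤)
    (α : MulAut E) (hαU : ∀ u ∈ (U : Subgroup E), α u = u) (hαh : α h = h) : α = 1 := by
  -- action on Sylow subgroups
  have hnormal : ∀ W : Sylow p E, ∀ x : E, (∀ y, y ∈ (W : Subgroup E) → x * y * x⁻¹ ∈ (W : Subgroup E)) →
      x ∈ normalizer ((W : Subgroup E) : Set E) := fun W x hx => mem_norm hx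
  -- `α` maps `V` to a Sylow subgroup
  obtain ⟨αV, hαV⟩ : ∃ W : Sylow p E, (W : Subgroup E) = (V : Subgroup E).map α.toMonoidHom :=
    ⟨V.mapSurjective α.surjective, rfl⟩
  have hVV : (V : Subgroup E).map α.toMonoidHom = V := by
    rcases hW αV with h1 | ⟨u, hu, h1⟩
    · exfalso
      have h2 : (V : Subgroup E) = U := by
        have h3 : (V : Subgroup E).map α.toMonoidHom = U := by rw [← hαV, h1]
        have h4 : (U : Subgroup E).map α.toMonoidHom = U := by
          ext x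
          constructor
          · rintro ⟨y, hy, rfl⟩
            show α y ∈ _
            rw [hαU y hy]; exact hy
          · intro hx
            exact ⟨x, hx, hαU x hx⟩
        exact Subgroup.map_injective α.injective (h3.trans h4.symm)
      apply hU
      rw [eq_bot_iff]
      intro x hx
      exact mem_bot.2 (hUV x hx (by rw [h2]; exact le_normalizer hx))
    · have h2 : (V : Subgroup E).map α.toMonoidHom = (u • V : Sylow p E) := by rw [← hαV, h1]
      have h3 : ∀ y ∈ (V : Subgroup E), ∃ v ∈ (V : Subgroup E), α y = u * v * u⁻¹ := by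
        intro y hy
        have : α y ∈ (V : Subgroup E).map α.toMonoidHom := ⟨y, hy, rfl⟩
        rw [h2, Sylow.coe_subgroup_smul] at this
        obtain ⟨v, hv, hv'⟩ := this
        exact ⟨v, hv, hv'.symm⟩
      have h4 : ∀ v ∈ (V : Subgroup E), ∃ y ∈ (V : Subgroup E), α y = u * v * u⁻¹ := by
        intro v hv
        have : u * v * u⁻¹ ∈ (V : Subgroup E).map α.toMonoidHom := by
          rw [h2, Sylow.coe_subgroup_smul]
          exact ⟨v, hv, rfl⟩
        obtain ⟨y, hy, hy'⟩ := this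
        exact ⟨y, hy, hy'⟩
      -- `u⁻¹ h u` normalizes `V`
      have h5 : u⁻¹ * h * u ∈ normalizer ((V : Subgroup E) : Set E) := by
        apply mem_norm
        intro v hv
        obtain ⟨y, hy, hy'⟩ := h4 v hv
        obtain ⟨w, hw, hw'⟩ := h3 (h * y * h⁻¹) ((mem_normalizer_iff.1 hhV y).1 hy)
        rw [map_mul, map_mul, map_inv, hαh, hy'] at hw'
        have e : u⁻¹ * h * u * v * (u⁻¹ * h * u)⁻¹ = u⁻¹ * (h * (u * v * u⁻¹) * h⁻¹) * u := by group
        rw [e, hw']
        have e2 : u⁻¹ * (u * w * u⁻¹) * u = w := by group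
        rw [e2]; exact hw
      have h6 : h⁻¹ * u⁻¹ * h * u ∈ normalizer ((V : Subgroup E) : Set E) := by
        have := mul_mem (inv_mem hhV) h5
        have e : h⁻¹ * (u⁻¹ * h * u) = h⁻¹ * u⁻¹ * h * u := by group
        rwa [e] at this
      have h7 : h⁻¹ * u⁻¹ * h * u ∈ (U : Subgroup E) := by
        refine mul_mem ?_ hu
        have := (mem_normalizer_iff.1 (inv_mem hhU) u⁻¹).1 (inv_mem hu)
        rwa [inv_inv] at this
      have h8 := hUV _ h7 h6
      have h9 : h * u = u * h := by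
        have e : h * u = u * h * (h⁻¹ * u⁻¹ * h * u) := by group
        rw [e, h8, mul_one]
      rw [h2, hfp u hu h9, one_smul]
  have hVα : ∀ v ∈ (V : Subgroup E), α v ∈ (V : Subgroup E) := by
    intro v hv
    rw [← hVV]; exact ⟨v, hv, rfl⟩
  -- `α` preserves all Sylow subgroups
  have hall : ∀ W : Sylow p E, ∀ w ∈ (W : Subgroup E), α w ∈ (W : Subgroup E) := by
    intro W w hw
    rcases hW W with rfl | ⟨u, hu, rfl⟩
    · rw [hαU w hw]; exact hw
    · rw [Sylow.coe_subgroup_smul] at hw ⊢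
      obtain ⟨v, hv, rfl⟩ := hw
      refine ⟨α v, hVα v hv, ?_⟩
      show u * α v * u⁻¹ = α (u * v * u⁻¹)
      rw [map_mul, map_mul, map_inv, hαU u hu]
  -- `K`: the kernel of the action on Sylow subgroups
  let K : Subgroup E :=
    { carrier := {x | ∀ W : Sylow p E, x ∈ normalizer ((W : Subgroup E) : Set E)}
      one_mem' := fun W => one_mem _
      mul_mem' := fun {a b} ha hb W => mul_mem (ha W) (hb W)
      inv_mem' := fun {a} ha W => inv_mem (ha W) }
  have hKn : K.Normal := by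
    constructor
    intro k hk g W
    apply mem_norm
    intro y hy
    have h1 := hk (g⁻¹ • W)
    have h2 : g⁻¹ * y * g ∈ ((g⁻¹ • W : Sylow p E) : Subgroup E) := by
      rw [Sylow.coe_subgroup_smul]
      refine ⟨y, hy, ?_⟩
      show g⁻¹ * y * g⁻¹⁻¹ = _
      rw [inv_inv]
    have h3 := (mem_normalizer_iff.1 h1 _).1 h2
    rw [Sylow.coe_subgroup_smul] at h3
    obtain ⟨w, hw, hw'⟩ := h3
    have hw2 : g⁻¹ * w * g⁻¹⁻¹ = k * (g⁻¹ * y * g) * k⁻¹ := hw'
    have e : g * k * g⁻¹ * y * (g * k * g⁻¹)⁻¹ = w := by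
      calc g * k * g⁻¹ * y * (g * k * g⁻¹)⁻¹ = g * (k * (g⁻¹ * y * g) * k⁻¹) * g⁻¹ := by group
        _ = g * (g⁻¹ * w * g⁻¹⁻¹) * g⁻¹ := by rw [hw2]
        _ = w := by group
    rw [e]; exact hw
  have hKp : ∀ x ∈ K, ∀ k : ℕ, x ^ p ^ k = 1 → x = 1 := by
    intro x hx k hk
    exact hUV x (mem_of_normalizes U hk (hx U)) (hx V)
  -- `K` is central
  have hKc : ∀ x ∈ K, ∀ y, x * y = y * x := by
    intro x hx
    have h1 : centralizer ({x} : Set E) = ⊤ := by
      apply hgen
      intro y k hy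
      obtain ⟨W, hyW⟩ := exists_sylow_mem hy
      have h2 : x * y * x⁻¹ * y⁻¹ ∈ (W : Subgroup E) :=
        mul_mem ((mem_normalizer_iff.1 (hx W) y).1 hyW) (inv_mem hyW)
      have h3 : x * y * x⁻¹ * y⁻¹ ∈ K := by
        have e : x * y * x⁻¹ * y⁻¹ = x * (y * x⁻¹ * y⁻¹) := by group
        rw [e]
        exact mul_mem hx (hKn.conj_mem _ (inv_mem hx) y)
      obtain ⟨l, hl⟩ := isP_pow h2
      have h4 := hKp _ h3 l hl
      rw [mul_inv_eq_one, mul_inv_eq_iff_eq_mul] at h4
      exact mem_centralizer_singleton_iff.2 h4.symm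
    intro y
    have : y ∈ centralizer ({x} : Set E) := by rw [h1]; exact mem_top y
    exact (mem_centralizer_singleton_iff.1 this).symm
  -- `α e * e⁻¹ ∈ K`
  have hαK : ∀ e, α e * e⁻¹ ∈ K := by
    intro e W
    apply mem_norm
    intro y hy
    -- `e⁻¹ y e ∈ e⁻¹ • W`
    have h1 : e⁻¹ * y * e ∈ ((e⁻¹ • W : Sylow p E) : Subgroup E) := by
      rw [Sylow.coe_subgroup_smul]
      refine ⟨y, hy, ?_⟩
      show e⁻¹ * y * e⁻¹⁻¹ = _
      rw [inv_inv]
    -- choose a preimage under α in `e⁻¹ • W`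
    have h2 : ((e⁻¹ • W : Sylow p E) : Subgroup E).map α.toMonoidHom = ((e⁻¹ • W : Sylow p E) : Subgroup E) := by
      apply Subgroup.eq_of_le_of_card_ge
      · rintro _ ⟨w, hw, rfl⟩
        exact hall _ w hw
      · rw [Subgroup.card_map_of_injective α.injective]
    rw [← h2] at h1
    obtain ⟨w, hw, hw'⟩ := h1
    have hw2 : α w = e⁻¹ * y * e := hw'
    have h3 : e * w * e⁻¹ ∈ (W : Subgroup E) := by
      rw [Sylow.coe_subgroup_smul] at hw
      obtain ⟨w1, hw1, hw1'⟩ := hw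
      have : e⁻¹ * w1 * e⁻¹⁻¹ = w := hw1'
      rw [← this]
      have e3 : e * (e⁻¹ * w1 * e⁻¹⁻¹) * e⁻¹ = w1 := by group
      rw [e3]; exact hw1
    have h4 := hall W _ h3
    rw [map_mul, map_mul, map_inv, hw2] at h4
    have e4 : α e * e⁻¹ * y * (α e * e⁻¹)⁻¹ = α e * (e⁻¹ * y * e) * (α e)⁻¹ := by group
    rw [e4]; exact h4
  -- fixed points
  let M : Subgroup E :=
    { carrier := {x | α x = x}
      one_mem' := map_one _
      mul_mem' := fun {a b} ha hb => by
        show α (a * b) = a * b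
        rw [map_mul, show α a = a from ha, show α b = b from hb]
      inv_mem' := fun {a} ha => by
        show α a⁻¹ = a⁻¹
        rw [map_inv, show α a = a from ha] }
  have hM : M = ⊤ := by
    apply hgen
    intro x k hx
    show α x = x
    have h1 := hαK x
    have h2 := hKc _ h1
    have h3 : (α x * x⁻¹) ^ p ^ k = 1 := by
      have h4 : α x = (α x * x⁻¹) * x := by group
      have h5 : α x ^ p ^ k = 1 := by rw [← map_pow, hx, map_one]
      have h6 : ((α x * x⁻¹) * x) ^ p ^ k = (α x * x⁻¹) ^ p ^ k * x ^ p ^ k :=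
        Commute.mul_pow (h2 x) _
      rw [← h4, h5, hx, mul_one] at h6
      exact h6.symm
    exact mul_inv_eq_one.1 (hKp _ h1 k h3)
  ext x
  have : x ∈ M := by rw [hM]; exact mem_top x
  exact this

/-- the main theorem, with `S ≥ U` -/
theorem main_aux {P : Type*} [Group P] [Finite P] {p : ℕ} [hp : Fact p.Prime] (E : Subgroup P) [hEn : E.Normal]
    (hPE : IsPGroup p (P ⧸ E)) (hO : pCore p P = ⊥) {U V : Sylow p E} {h : E}
    (hU : (U : Subgroup E) ≠ ⊥)
    (hhU : h ∈ normalizer ((U : Subgroup E) : Set E)) (hhV : h ∈ normalizer ((V : Subgroup E) : Set E))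
    (hUV : ∀ u ∈ (U : Subgroup E), u ∈ normalizer ((V : Subgroup E) : Set E) → u = 1)
    (hfp : ∀ u ∈ (U : Subgroup E), h * u = u * h → u = 1)
    (hW : ∀ W : Sylow p E, W = U ∨ ∃ u ∈ (U : Subgroup E), W = u • V)
    (hc : ∃ c ∈ normalizer ((U : Subgroup E) : Set E), ∀ b ∈ normalizer ((U : Subgroup E) : Set E),
      ∃ k : ℤ, ∃ u ∈ (U : Subgroup E), b = c ^ k * u)
    (hh : h ^ (p - 1) ∈ (U : Subgroup E))
    (hgen : ∀ M : Subgroup E, (∀ x : E, ∀ k : ℕ, x ^ p ^ k = 1 → x ∈ M) → M = ⊤)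
    (S : Sylow p P) (hUS : ∀ u ∈ (U : Subgroup E), (u : P) ∈ (S : Subgroup P)) (z : P) (hzS : z ∈ (S : Subgroup P))
    (hzN : ∀ g ∈ normalizer ((S : Subgroup P) : Set P), g * z = z * g) : z = 1 := by
  -- `S ∩ E = U`
  have hSE : ∀ x : E, (x : P) ∈ (S : Subgroup P) → x ∈ (U : Subgroup E) := by
    intro x hx
    have h1 : IsPGroup p ((S : Subgroup P).subgroupOf E) :=
      S.2.comap_of_injective _ E.subtype_injective
    have h2 : (U : Subgroup E) ≤ (S : Subgroup P).subgroupOf E := fun u hu => hUS u hu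
    have h3 := U.3 h1 h2
    rw [← h3]; exact hx
  have hconjU : ∀ s ∈ (S : Subgroup P), ∀ u : E, u ∈ (U : Subgroup E) → (MulAut.conjNormal s u : E) ∈ (U : Subgroup E) := by
    intro s hs u hu
    apply hSE
    rw [MulAut.conjNormal_apply]
    exact mul_mem (mul_mem hs (hUS u hu)) (inv_mem hs)
  -- the torus element normalizes `S`
  obtain ⟨c, hcU, hc⟩ := hc
  set X : Subgroup P := normalizer (((U : Subgroup E).map E.subtype : Subgroup P) : Set P) with hX
  have hEX : ∀ x : E, (x : P) ∈ X ↔ x ∈ normalizer ((U : Subgroup E) : Set E) := by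
    intro x
    constructor
    · intro hx
      apply mem_norm
      intro y hy
      obtain ⟨w, hw, hw'⟩ := (mem_normalizer_iff.1 hx (y : P)).1 ⟨y, hy, rfl⟩
      have : x * y * x⁻¹ = w := Subtype.ext hw'.symm
      rw [this]; exact hw
    · intro hx
      apply mem_norm
      rintro _ ⟨y, hy, rfl⟩
      exact ⟨x * y * x⁻¹, (mem_normalizer_iff.1 hx y).1 hy, rfl⟩
  have hSX : ∀ s ∈ (S : Subgroup P), s ∈ X := by
    intro s hs
    apply mem_norm
    rintro _ ⟨y, hy, rfl⟩
    refine ⟨_, hconjU s hs y hy, ?_⟩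
    exact MulAut.conjNormal_apply s y
  let UX : Subgroup X := ((U : Subgroup E).map E.subtype).subgroupOf X
  have hUXn : UX.Normal := by
    have : UX = ((U : Subgroup E).map E.subtype).subgroupOf (normalizer (((U : Subgroup E).map E.subtype : Subgroup P) : Set P)) := rfl
    rw [this]; infer_instance
  have hkey : ∀ s ∈ (S : Subgroup P), s * h * s⁻¹ * (h : P)⁻¹ ∈ (S : Subgroup P) := by
    intro s hs
    obtain ⟨k, hk⟩ := S.2 ⟨s, hs⟩
    have hk' : s ^ p ^ k = 1 := congrArg Subtype.val hk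
    let B : Subgroup (X ⧸ UX) := (E.subgroupOf X).map (QuotientGroup.mk' UX)
    haveI : B.Normal := Subgroup.Normal.map inferInstance _ (QuotientGroup.mk'_surjective UX)
    have h1 := fix_of_cyclic (p := p) B (QuotientGroup.mk' UX ⟨(c : P), (hEX c).2 hcU⟩) ⟨_, c.2, rfl⟩
      (by
        rintro _ ⟨⟨b, hb⟩, hbE, rfl⟩
        obtain ⟨j, u, hu, hbu⟩ := hc ⟨b, hbE⟩ ((hEX ⟨b, hbE⟩).1 hb)
        refine ⟨j, ?_⟩
        rw [← map_zpow]
        apply (QuotientGroup.eq).2
        show (((⟨b, hb⟩ : X)⁻¹ * (⟨(c : P), (hEX c).2 hcU⟩ : X) ^ j : X) : P) ∈ (U : Subgroup E).map E.subtype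
        refine ⟨u⁻¹, inv_mem hu, ?_⟩
        have hbu' : b = (c : P) ^ j * u := congrArg Subtype.val hbu
        show (u : P)⁻¹ = b⁻¹ * (c : P) ^ j
        rw [hbu']; group)
      (QuotientGroup.mk' UX ⟨(h : P), (hEX h).2 hhU⟩) ⟨_, h.2, rfl⟩
      (by
        rw [← map_pow]
        apply (QuotientGroup.eq_one_iff _).2
        show (h : P) ^ (p - 1) ∈ (U : Subgroup E).map E.subtype
        exact ⟨_, hh, rfl⟩)
      (QuotientGroup.mk' UX ⟨s, hSX s hs⟩) k
      (by
        rw [← map_pow]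
        have : (⟨s, hSX s hs⟩ : X) ^ p ^ k = 1 := Subtype.ext hk'
        rw [this, map_one])
    rw [← map_mul, ← map_inv, ← map_mul] at h1
    have h2 := (QuotientGroup.eq).1 h1.symm
    have h3 : (h : P)⁻¹ * (s * h * s⁻¹) ∈ (U : Subgroup E).map E.subtype := h2
    obtain ⟨u, hu, hu'⟩ := h3
    have hu2 : (u : P) = (h : P)⁻¹ * (s * h * s⁻¹) := hu'
    have h4 : s * h * s⁻¹ * (h : P)⁻¹ = ((h * u * h⁻¹ : E) : P) := by
      show s * h * s⁻¹ * (h : P)⁻¹ = (h : P) * u * (h : P)⁻¹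
      rw [hu2]; group
    rw [h4]
    exact hUS _ ((mem_normalizer_iff.1 hhU u).1 hu)
  have hhS : (h : P) ∈ normalizer ((S : Subgroup P) : Set P) := by
    apply mem_norm
    intro s hs
    have e : (h : P) * s * (h : P)⁻¹ = (s * h * s⁻¹ * (h : P)⁻¹)⁻¹ * s := by group
    rw [e]
    exact mul_mem (inv_mem (hkey s hs)) hs
  -- `z` centralizes `E`
  have h1 : (MulAut.conjNormal z : MulAut E) = 1 := by
    apply aut_trivial hU hhU hhV hUV hfp hW hgen
    · intro u hu
      apply Subtype.ext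
      rw [MulAut.conjNormal_apply, ← hzN _ (le_normalizer (hUS u hu)), mul_inv_cancel_right]
    · apply Subtype.ext
      rw [MulAut.conjNormal_apply, ← hzN _ hhS, mul_inv_cancel_right]
  have hzC : z ∈ centralizer (E : Set P) := by
    rw [mem_centralizer_iff]
    intro e he
    have h2 := congrArg (fun f : MulAut E => ((f ⟨e, he⟩ : E) : P)) h1
    have h3 : z * e * z⁻¹ = e := h2
    conv_lhs => rw [← h3]
    group
  -- `C = C_P(E)` is nilpotent
  set C : Subgroup P := centralizer (E : Set P) with hC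
  haveI hCn : C.Normal := by rw [hC]; infer_instance
  have hquot : IsPGroup p (C ⧸ (E.subgroupOf C)) := by
    have f : C ⧸ (E.subgroupOf C) →* P ⧸ E := QuotientGroup.map (E.subgroupOf C) E C.subtype (le_refl _)
    refine hPE.of_injective (QuotientGroup.map (E.subgroupOf C) E C.subtype (le_refl _)) ?_
    rw [← MonoidHom.ker_eq_bot_iff, eq_bot_iff]
    intro x hx
    obtain ⟨y, rfl⟩ := QuotientGroup.mk_surjective x
    have h2 : (QuotientGroup.mk ((y : C) : P) : P ⧸ E) = 1 := hx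
    rw [QuotientGroup.eq_one_iff] at h2
    exact mem_bot.2 ((QuotientGroup.eq_one_iff y).2 h2)
  haveI hnil : Group.IsNilpotent C := by
    haveI : Group.IsNilpotent (C ⧸ (E.subgroupOf C)) := hquot.isNilpotent
    have hle : (QuotientGroup.mk' (E.subgroupOf C)).ker ≤ center C := by
      rw [QuotientGroup.ker_mk']
      intro x hx
      rw [mem_center_iff]
      intro y
      apply Subtype.ext
      exact ((mem_centralizer_iff.1 y.2) (x : P) hx).symm
    exact Subgroup.isNilpotent_of_ker_le_center _ hle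
  obtain ⟨R⟩ : Nonempty (Sylow p C) := inferInstance
  have hRn : (R : Subgroup C).Normal := by
    have := (Group.isNilpotent_of_finite_tfae (G := C)).out 0 3
    exact this.1 hnil p hp R
  obtain ⟨k, hk⟩ := S.2 ⟨z, hzS⟩
  have hk' : z ^ p ^ k = 1 := congrArg Subtype.val hk
  have hzR : (⟨z, hzC⟩ : C) ∈ (R : Subgroup C) := by
    apply mem_of_normalizes R (k := k)
    · exact Subtype.ext hk'
    · rw [normalizer_eq_top_iff.2 hRn]; exact mem_top _
  have hRc : (R : Subgroup C).Characteristic := Sylow.characteristic_of_normal R hRn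
  have hRP : ((R : Subgroup C).map C.subtype).Normal := by
    haveI := hRc
    infer_instance
  have h2 : (R : Subgroup C).map C.subtype ≤ pCore p P :=
    Cfsg.Agent.Solv.le_pCore hRP (R.2.map _)
  have h3 : z ∈ pCore p P := h2 ⟨_, hzR, rfl⟩
  rw [hO] at h3
  exact mem_bot.1 h3

/-- **Main theorem** -/
theorem main {P : Type*} [Group P] [Finite P] {p : ℕ} [hp : Fact p.Prime] (E : Subgroup P) [hEn : E.Normal]
    (hPE : IsPGroup p (P ⧸ E)) (hO : pCore p P = ⊥) (hR : R1 p E)
    (S : Sylow p P) (z : P) (hzS : z ∈ (S : Subgroup P))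
    (hzN : ∀ g ∈ normalizer ((S : Subgroup P) : Set P), g * z = z * g) : z = 1 := by
  obtain ⟨U, V, h, hU, hhU, hhV, hUV, hfp, hW, hc, hh, hgen⟩ := hR
  have h1 : IsPGroup p ((U : Subgroup E).map E.subtype) := U.2.map _
  obtain ⟨S₀, hS₀⟩ := h1.exists_le_sylow
  obtain ⟨g, hg⟩ := MulAction.exists_smul_eq P S S₀
  have h2 : g * z * g⁻¹ = 1 := by
    apply main_aux E hPE hO hU hhU hhV hUV hfp hW hc hh hgen S₀ (fun u hu => hS₀ ⟨u, hu, rfl⟩)
    · rw [← hg, Sylow.coe_subgroup_smul]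
      exact ⟨z, hzS, rfl⟩
    · intro x hx
      have h3 : g⁻¹ * x * g ∈ normalizer ((S : Subgroup P) : Set P) := by
        apply mem_norm
        intro s hs
        have h4 : g * s * g⁻¹ ∈ (S₀ : Subgroup P) := by
          rw [← hg, Sylow.coe_subgroup_smul]; exact ⟨s, hs, rfl⟩
        have h5 := (mem_normalizer_iff.1 hx _).1 h4
        rw [← hg, Sylow.coe_subgroup_smul] at h5
        obtain ⟨w, hw, hw'⟩ := h5
        have hw2 : g * w * g⁻¹ = x * (g * s * g⁻¹) * x⁻¹ := hw'
        have e : g⁻¹ * x * g * s * (g⁻¹ * x * g)⁻¹ = g⁻¹ * (x * (g * s * g⁻¹) * x⁻¹) * g := by group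
        rw [e, ← hw2]
        have e2 : g⁻¹ * (g * w * g⁻¹) * g = w := by group
        rw [e2]; exact hw
      have h4 := hzN _ h3
      calc x * (g * z * g⁻¹) = g * (g⁻¹ * x * g * z) * g⁻¹ := by group
        _ = g * (z * (g⁻¹ * x * g)) * g⁻¹ := by rw [h4]
        _ = g * z * g⁻¹ * x := by group
  have e : z = g⁻¹ * (g * z * g⁻¹) * g := by group
  rw [e, h2]; group

end Cfsg.Agent.R1T
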