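import Cfsg.Agent.R1T.Action
set_option autoImplicit false
set_option linter.all false

namespace Cfsg.Agent.R1T

open Matrix Cfsg MulAction

variable {F : Type*} [Field F]

/-- upper unipotent -/
def xx (t : F) : SpecialLinearGroup (Fin 2) F := ⟨!![1, t; 0, 1], by simp [Matrix.det_fin_two]⟩
/-- lower unipotent -/
def yy (t : F) : SpecialLinearGroup (Fin 2) F := ⟨!![1, 0; t, 1], by simp [Matrix.det_fin_two]⟩

theorem xx_coe (t : F) : ((xx t : SpecialLinearGroup (Fin 2) F) : Matrix (Fin 2) (Fin 2) F) = !![1, t; 0, 1] := rfl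
theorem yy_coe (t : F) : ((yy t : SpecialLinearGroup (Fin 2) F) : Matrix (Fin 2) (Fin 2) F) = !![1, 0; t, 1] := rfl

/-- an element of `SL₂` fixing a nonzero vector has order dividing `p` -/
theorem pow_of_fix {p : ℕ} [hp : Fact p.Prime] [CharP F p] {g : SpecialLinearGroup (Fin 2) F} {w : Fin 2 → F}
    (hw : w ≠ 0) (hg : (g : Matrix (Fin 2) (Fin 2) F) *ᵥ w = w) : g ^ p = 1 := by
  set A : Matrix (Fin 2) (Fin 2) F := (g : Matrix (Fin 2) (Fin 2) F) with hA
  have hdet : A 0 0 * A 1 1 - A 0 1 * A 1 0 = 1 := by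
    have := g.det_coe
    rwa [Matrix.det_fin_two] at this
  have h1 : (A - 1).det = 0 := by
    apply Matrix.exists_mulVec_eq_zero_iff.1
    exact ⟨w, hw, by rw [Matrix.sub_mulVec, hg, Matrix.one_mulVec, sub_self]⟩
  rw [Matrix.det_fin_two] at h1
  simp only [Matrix.sub_apply, Matrix.one_apply_eq, ne_eq, Fin.isValue, one_ne_zero, not_false_eq_true,
    Matrix.one_apply_ne, sub_zero, zero_ne_one] at h1
  have htr : A 0 0 + A 1 1 = 2 := by linear_combination hdet - h1
  have h2 : (A - 1) * (A - 1) = 0 := by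
    ext i j
    fin_cases i <;> fin_cases j <;> simp [Matrix.mul_apply, Fin.sum_univ_two]
    · linear_combination (A 0 0) * htr - hdet
    · linear_combination (A 0 1) * htr
    · linear_combination (A 1 0) * htr
    · linear_combination (A 1 1) * htr - hdet
  have h3 : (A - 1) ^ p = 0 := by
    have : p = (p - 2) + 2 := by have := hp.out.two_le; omega
    rw [this, pow_add, pow_two, h2, mul_zero]
  have h4 : (A - 1) ^ p = A ^ p - 1 := by
    rw [sub_pow_char_of_commute (p := p) (Commute.one_right A), one_pow]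
  rw [h3] at h4
  apply Subtype.ext
  rw [Matrix.SpecialLinearGroup.coe_pow, Matrix.SpecialLinearGroup.coe_one]
  exact (sub_eq_zero.1 h4.symm)

/-- `SL₂(F)` is generated by its unipotent elements -/
theorem sl2_gen (M : Subgroup (SpecialLinearGroup (Fin 2) F)) (hx : ∀ t, xx t ∈ M) (hy : ∀ t, yy t ∈ M) : M = ⊤ := by
  have key : ∀ g : SpecialLinearGroup (Fin 2) F, (g : Matrix (Fin 2) (Fin 2) F) 1 0 ≠ 0 → g ∈ M := by
    intro g hc
    set A : Matrix (Fin 2) (Fin 2) F := (g : Matrix (Fin 2) (Fin 2) F) with hA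
    have hdet : A 0 0 * A 1 1 - A 0 1 * A 1 0 = 1 := by
      have := g.det_coe
      rwa [Matrix.det_fin_two] at this
    have e : g = xx ((A 0 0 - 1) / A 1 0) * yy (A 1 0) * xx ((A 1 1 - 1) / A 1 0) := by
      apply Subtype.ext
      rw [Matrix.SpecialLinearGroup.coe_mul, Matrix.SpecialLinearGroup.coe_mul, xx_coe, xx_coe, yy_coe]
      show A = _
      ext i j
      fin_cases i <;> fin_cases j <;> simp [Matrix.mul_apply, Fin.sum_univ_two] <;> field_simp <;>
        first
        | ring1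
        | linear_combination (-1 : F) * hdet
        | linear_combination hdet
    rw [e]
    exact mul_mem (mul_mem (hx _) (hy _)) (hx _)
  rw [eq_top_iff]
  intro g _
  by_cases hc : (g : Matrix (Fin 2) (Fin 2) F) 1 0 = 0
  · have hdet : (g : Matrix (Fin 2) (Fin 2) F) 0 0 * (g : Matrix (Fin 2) (Fin 2) F) 1 1 -
        (g : Matrix (Fin 2) (Fin 2) F) 0 1 * (g : Matrix (Fin 2) (Fin 2) F) 1 0 = 1 := by
      have := g.det_coe
      rwa [Matrix.det_fin_two] at this
    have h1 := key (g * yy 1) (by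
      rw [Matrix.SpecialLinearGroup.coe_mul, yy_coe]
      simp [Matrix.mul_apply, Fin.sum_univ_two, hc]
      intro h0
      rw [h0, hc] at hdet
      simp at hdet)
    have h2 := mul_mem h1 (inv_mem (hy 1))
    rwa [mul_inv_cancel_right] at h2
  · exact key g hc

/-- **rank one data for `SL₂(F)`** -/
theorem r1_sl2 [Fintype F] {p : ℕ} [hp : Fact p.Prime] [CharP F p] (h2p : (2 : F) ^ (p - 1) = 1) (h2 : (2 : F) ≠ 0)
    (h3 : (3 : F) ≠ 0) : R1 p (SpecialLinearGroup (Fin 2) F) := by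
  classical
  letI a1 : MulAction (SpecialLinearGroup (Fin 2) F) {v : Fin 2 → F // v ≠ 0} :=
    { smul := fun g v => ⟨(g : Matrix (Fin 2) (Fin 2) F) *ᵥ v, by
        intro h0
        apply v.2
        have h1 : ((g⁻¹ : SpecialLinearGroup (Fin 2) F) : Matrix (Fin 2) (Fin 2) F) *ᵥ ((g : Matrix (Fin 2) (Fin 2) F) *ᵥ v) = v := by
          rw [Matrix.mulVec_mulVec, ← Matrix.SpecialLinearGroup.coe_mul, inv_mul_cancel,
            Matrix.SpecialLinearGroup.coe_one, Matrix.one_mulVec]
        rw [← h1, h0, Matrix.mulVec_zero]⟩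
      one_smul := fun v => Subtype.ext (by
        show ((1 : SpecialLinearGroup (Fin 2) F) : Matrix (Fin 2) (Fin 2) F) *ᵥ (v : Fin 2 → F) = v
        rw [Matrix.SpecialLinearGroup.coe_one, Matrix.one_mulVec])
      mul_smul := fun g h v => Subtype.ext (by
        show ((g * h : SpecialLinearGroup (Fin 2) F) : Matrix (Fin 2) (Fin 2) F) *ᵥ (v : Fin 2 → F) =
          (g : Matrix (Fin 2) (Fin 2) F) *ᵥ ((h : Matrix (Fin 2) (Fin 2) F) *ᵥ (v : Fin 2 → F))
        rw [Matrix.SpecialLinearGroup.coe_mul, Matrix.mulVec_mulVec]) }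
  letI a2 : MulAction Fˣ {v : Fin 2 → F // v ≠ 0} :=
    { smul := fun k v => ⟨(k : F) • (v : Fin 2 → F), smul_ne_zero k.ne_zero v.2⟩
      one_smul := fun v => Subtype.ext (by
        show ((1 : Fˣ) : F) • (v : Fin 2 → F) = v
        rw [Units.val_one, one_smul])
      mul_smul := fun k l v => Subtype.ext (by
        show ((k * l : Fˣ) : F) • (v : Fin 2 → F) = (k : F) • ((l : F) • (v : Fin 2 → F))
        rw [Units.val_mul, mul_smul]) }
  have e1 : ∀ (g : SpecialLinearGroup (Fin 2) F) (w : {v : Fin 2 → F // v ≠ 0}),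
      ((g • w : {v : Fin 2 → F // v ≠ 0}) : Fin 2 → F) = (g : Matrix (Fin 2) (Fin 2) F) *ᵥ w := fun _ _ => rfl
  have e2 : ∀ (k : Fˣ) (w : {v : Fin 2 → F // v ≠ 0}),
      ((k • w : {v : Fin 2 → F // v ≠ 0}) : Fin 2 → F) = (k : F) • (w : Fin 2 → F) := fun _ _ => rfl
  haveI a3 : SMulCommClass (SpecialLinearGroup (Fin 2) F) Fˣ {v : Fin 2 → F // v ≠ 0} := ⟨fun g k w => Subtype.ext (by
    rw [e1, e2, e2, e1, Matrix.mulVec_smul])⟩
  have hu0 : (![1, 0] : Fin 2 → F) ≠ 0 := fun h => one_ne_zero (congrFun h 0)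
  have hv0 : (![0, 1] : Fin 2 → F) ≠ 0 := fun h => one_ne_zero (congrFun h 1)
  have hfixu : ∀ g : SpecialLinearGroup (Fin 2) F, (g : Matrix (Fin 2) (Fin 2) F) *ᵥ ![1, 0] = ![1, 0] →
      ∃ t, g = xx t := by
    intro g hg
    have h1 := congrFun hg 0
    have h4 := congrFun hg 1
    simp [Matrix.mulVec, dotProduct, Fin.sum_univ_two] at h1 h4
    have hdet : (g : Matrix (Fin 2) (Fin 2) F) 0 0 * (g : Matrix (Fin 2) (Fin 2) F) 1 1 -
        (g : Matrix (Fin 2) (Fin 2) F) 0 1 * (g : Matrix (Fin 2) (Fin 2) F) 1 0 = 1 := by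
      have := g.det_coe
      rwa [Matrix.det_fin_two] at this
    rw [h1, h4, one_mul, mul_zero, sub_zero] at hdet
    refine ⟨(g : Matrix (Fin 2) (Fin 2) F) 0 1, Subtype.ext ?_⟩
    show (g : Matrix (Fin 2) (Fin 2) F) = _
    rw [xx_coe]
    ext i j
    fin_cases i <;> fin_cases j <;> simp [h1, h4, hdet]
  have hh0 : (!![(2 : F), 0; 0, 2⁻¹]).det = 1 := by
    rw [Matrix.det_fin_two]; simp [h2]
  obtain ⟨h, hh⟩ : ∃ h : SpecialLinearGroup (Fin 2) F, (h : Matrix (Fin 2) (Fin 2) F) = !![(2 : F), 0; 0, 2⁻¹] :=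
    ⟨⟨_, hh0⟩, rfl⟩
  have hcard : ¬ p ∣ Nat.card {v : Fin 2 → F // v ≠ 0} := by
    have h1 : Nat.card {v : Fin 2 → F // v ≠ 0} = Fintype.card F ^ 2 - 1 := by
      rw [Nat.card_eq_fintype_card]
      have h4 := Set.card_ne_eq (0 : Fin 2 → F)
      rw [Fintype.card_fun, Fintype.card_fin] at h4
      rw [← h4]
      apply Fintype.card_congr
      rfl
    have h4 : p ∣ Fintype.card F := by
      have h5 := FiniteField.cast_card_eq_zero F
      rwa [CharP.cast_eq_zero_iff F p] at h5
    rw [h1]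
    intro h5
    have h6 : p ∣ Fintype.card F ^ 2 := dvd_pow h4 (by norm_num)
    have h7 : 1 ≤ Fintype.card F ^ 2 := Nat.one_le_pow _ _ Fintype.card_pos
    have h8 := (Nat.dvd_sub_iff_right h7 h6).1 h5
    exact hp.out.one_lt.ne' (Nat.dvd_one.1 h8)
  refine R1.of_action (Γ := SpecialLinearGroup (Fin 2) F) (Ω := {v : Fin 2 → F // v ≠ 0}) (K := Fˣ) (p := p)
    hcard ?_ ?_ ⟨_, hu0⟩ ⟨_, hv0⟩ ?_ ?_ ?_ ?_ h (Units.mk0 2 h2)
    (Units.mk0 2⁻¹ (inv_ne_zero h2)) ?_ ?_ ?_ ?_ ?_
  · intro k w hk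
    have h4 := congrArg Subtype.val hk
    rw [e2] at h4
    have h5 : ((k : F) - 1) • (w : Fin 2 → F) = 0 := by rw [sub_smul, one_smul, h4, sub_self]
    exact Units.ext (sub_eq_zero.1 ((smul_eq_zero.1 h5).resolve_right w.2))
  · rintro w ⟨g, hg⟩
    have h4 : (g : Matrix (Fin 2) (Fin 2) F) *ᵥ (w : Fin 2 → F) = w := congrArg Subtype.val hg
    refine ⟨1, Subtype.ext ?_⟩
    rw [pow_one]
    exact pow_of_fix w.2 h4
  · intro w
    have hd : (!![1 - (w : Fin 2 → F) 0 * (w : Fin 2 → F) 1, (w : Fin 2 → F) 0 ^ 2; -(w : Fin 2 → F) 1 ^ 2,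
        1 + (w : Fin 2 → F) 0 * (w : Fin 2 → F) 1]).det = 1 := by
      rw [Matrix.det_fin_two]
      simp
      ring
    obtain ⟨g, hg⟩ : ∃ g : SpecialLinearGroup (Fin 2) F, (g : Matrix (Fin 2) (Fin 2) F) =
      !![1 - (w : Fin 2 → F) 0 * (w : Fin 2 → F) 1, (w : Fin 2 → F) 0 ^ 2; -(w : Fin 2 → F) 1 ^ 2,
        1 + (w : Fin 2 → F) 0 * (w : Fin 2 → F) 1] := ⟨⟨_, hd⟩, rfl⟩
    refine ⟨g, ?_, Subtype.ext ?_⟩
    · intro h1
      apply w.2
      rw [h1, Matrix.SpecialLinearGroup.coe_one] at hg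
      have h5 := congrFun (congrFun hg 0) 1
      have h6 := congrFun (congrFun hg 1) 0
      simp at h5 h6
      ext i
      fin_cases i
      · exact pow_eq_zero_iff (two_ne_zero) |>.1 h5.symm
      · first | exact h6 | exact h6.symm | exact pow_eq_zero_iff (two_ne_zero) |>.1 h6.symm
    · rw [e1, hg]
      ext i
      fin_cases i
      · simp [Matrix.mulVec, dotProduct, Fin.sum_univ_two]; ring
      · simp [Matrix.mulVec, dotProduct, Fin.sum_univ_two]; ring
  · intro g hg1 w w' hw hw'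
    have h4 : (g : Matrix (Fin 2) (Fin 2) F) *ᵥ (w : Fin 2 → F) = w := congrArg Subtype.val hw
    have h5 : (g : Matrix (Fin 2) (Fin 2) F) *ᵥ (w' : Fin 2 → F) = w' := congrArg Subtype.val hw'
    by_cases hD : (w : Fin 2 → F) 0 * (w' : Fin 2 → F) 1 - (w : Fin 2 → F) 1 * (w' : Fin 2 → F) 0 = 0
    · by_cases hw00 : (w : Fin 2 → F) 0 = 0
      · have hw1 : (w : Fin 2 → F) 1 ≠ 0 := by
          intro h6
          apply w.2
          ext i
          fin_cases i
          · exact hw00
          · exact h6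
        have hw'0 : (w' : Fin 2 → F) 0 = 0 := by
          rw [hw00, zero_mul, zero_sub, neg_eq_zero] at hD
          exact (mul_eq_zero.1 hD).resolve_left hw1
        have hw'1 : (w' : Fin 2 → F) 1 ≠ 0 := by
          intro h6
          apply w'.2
          ext i
          fin_cases i
          · exact hw'0
          · exact h6
        refine ⟨Units.mk0 ((w' : Fin 2 → F) 1 / (w : Fin 2 → F) 1) (div_ne_zero hw'1 hw1), Subtype.ext ?_⟩
        rw [e2]
        ext i
        fin_cases i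
        · simp [hw00, hw'0]
        · simp [hw1]
      · have hw'00 : (w' : Fin 2 → F) 0 ≠ 0 := by
          intro h6
          apply w'.2
          rw [h6, mul_zero, sub_zero] at hD
          ext i
          fin_cases i
          · exact h6
          · exact (mul_eq_zero.1 hD).resolve_left hw00
        refine ⟨Units.mk0 ((w' : Fin 2 → F) 0 / (w : Fin 2 → F) 0) (div_ne_zero hw'00 hw00), Subtype.ext ?_⟩
        rw [e2]
        ext i
        fin_cases i
        · simp [hw00]
        · show (w' : Fin 2 → F) 1 = (w' : Fin 2 → F) 0 / (w : Fin 2 → F) 0 * (w : Fin 2 → F) 1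
          field_simp
          linear_combination hD
    · exfalso
      apply hg1
      apply Subtype.ext
      rw [Matrix.SpecialLinearGroup.coe_one]
      have hA : ∀ i, ((g : Matrix (Fin 2) (Fin 2) F) i 0 - (1 : Matrix (Fin 2) (Fin 2) F) i 0) * (w : Fin 2 → F) 0 +
          ((g : Matrix (Fin 2) (Fin 2) F) i 1 - (1 : Matrix (Fin 2) (Fin 2) F) i 1) * (w : Fin 2 → F) 1 = 0 := by
        intro i
        have h6 := congrFun h4 i
        have h7 := congrFun (Matrix.one_mulVec (w : Fin 2 → F)) i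
        simp only [Matrix.mulVec, dotProduct, Fin.sum_univ_two] at h6 h7
        linear_combination h6 - h7
      have hB : ∀ i, ((g : Matrix (Fin 2) (Fin 2) F) i 0 - (1 : Matrix (Fin 2) (Fin 2) F) i 0) * (w' : Fin 2 → F) 0 +
          ((g : Matrix (Fin 2) (Fin 2) F) i 1 - (1 : Matrix (Fin 2) (Fin 2) F) i 1) * (w' : Fin 2 → F) 1 = 0 := by
        intro i
        have h6 := congrFun h5 i
        have h7 := congrFun (Matrix.one_mulVec (w' : Fin 2 → F)) i
        simp only [Matrix.mulVec, dotProduct, Fin.sum_univ_two] at h6 h7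
        linear_combination h6 - h7
      ext i j
      have h8 : ((g : Matrix (Fin 2) (Fin 2) F) i 0 - (1 : Matrix (Fin 2) (Fin 2) F) i 0) = 0 := by
        have : ((g : Matrix (Fin 2) (Fin 2) F) i 0 - (1 : Matrix (Fin 2) (Fin 2) F) i 0) *
            ((w : Fin 2 → F) 0 * (w' : Fin 2 → F) 1 - (w : Fin 2 → F) 1 * (w' : Fin 2 → F) 0) = 0 := by
          linear_combination (w' : Fin 2 → F) 1 * hA i - (w : Fin 2 → F) 1 * hB i
        exact (mul_eq_zero.1 this).resolve_right hD
      have h9 : ((g : Matrix (Fin 2) (Fin 2) F) i 1 - (1 : Matrix (Fin 2) (Fin 2) F) i 1) = 0 := by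
        have : ((g : Matrix (Fin 2) (Fin 2) F) i 1 - (1 : Matrix (Fin 2) (Fin 2) F) i 1) *
            ((w : Fin 2 → F) 0 * (w' : Fin 2 → F) 1 - (w : Fin 2 → F) 1 * (w' : Fin 2 → F) 0) = 0 := by
          linear_combination (w : Fin 2 → F) 0 * hB i - (w' : Fin 2 → F) 0 * hA i
        exact (mul_eq_zero.1 this).resolve_right hD
      fin_cases j
      · exact sub_eq_zero.1 h8
      · exact sub_eq_zero.1 h9
  · intro w
    by_cases hw1 : (w : Fin 2 → F) 1 = 0
    · left
      have hw0 : (w : Fin 2 → F) 0 ≠ 0 := by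
        intro h6
        apply w.2
        ext i
        fin_cases i
        · exact h6
        · exact hw1
      refine ⟨Units.mk0 _ hw0, Subtype.ext ?_⟩
      rw [e2]
      ext i
      fin_cases i
      · simp
      · simp [hw1]
    · right
      refine ⟨Units.mk0 ((w : Fin 2 → F) 1)⁻¹ (inv_ne_zero hw1), xx ((w : Fin 2 → F) 0 / (w : Fin 2 → F) 1), Subtype.ext ?_, Subtype.ext ?_⟩
      · rw [e1, xx_coe]
        ext i
        fin_cases i <;> simp [Matrix.mulVec, dotProduct, Fin.sum_univ_two]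
      · rw [e1, e2, xx_coe]
        ext i
        fin_cases i
        · simp [Matrix.mulVec, dotProduct, Fin.sum_univ_two, div_eq_mul_inv, mul_comm]
        · simp [Matrix.mulVec, dotProduct, Fin.sum_univ_two, hw1]
  · intro g k hgu hgv
    obtain ⟨t, rfl⟩ := hfixu g (congrArg Subtype.val hgu)
    have h5 : ((xx t : SpecialLinearGroup (Fin 2) F) : Matrix (Fin 2) (Fin 2) F) *ᵥ ![0, 1] = (k : F) • ![0, 1] :=
      congrArg Subtype.val hgv
    rw [xx_coe] at h5
    have h6 := congrFun h5 0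
    simp [Matrix.mulVec, dotProduct, Fin.sum_univ_two] at h6
    rw [h6]
    apply Subtype.ext
    rw [xx_coe, Matrix.SpecialLinearGroup.coe_one]
    ext i j
    fin_cases i <;> fin_cases j <;> simp
  · apply Subtype.ext
    rw [e1, e2, hh]
    ext i
    fin_cases i <;> simp [Matrix.mulVec, dotProduct, Fin.sum_univ_two]
  · apply Subtype.ext
    rw [e1, e2, hh]
    ext i
    fin_cases i <;> simp [Matrix.mulVec, dotProduct, Fin.sum_univ_two]
  · apply Units.ext
    rw [Units.val_pow_eq_pow_val, Units.val_mk0, h2p, Units.val_one]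
  · intro g hgu hgh
    obtain ⟨t, rfl⟩ := hfixu g (congrArg Subtype.val hgu)
    have h5 := congrArg (fun g : SpecialLinearGroup (Fin 2) F => (g : Matrix (Fin 2) (Fin 2) F)) hgh
    simp only [Matrix.SpecialLinearGroup.coe_mul, xx_coe, hh] at h5
    have h6 := congrFun (congrFun h5 0) 1
    simp [Matrix.mul_apply, Fin.sum_univ_two] at h6
    have h7 : t = 0 := by
      have : 3 * t = 0 := by
        linear_combination 2 * h6 + t * (mul_inv_cancel₀ h2)
      exact (mul_eq_zero.1 this).resolve_left h3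
    rw [h7]
    apply Subtype.ext
    rw [xx_coe, Matrix.SpecialLinearGroup.coe_one]
    ext i j
    fin_cases i <;> fin_cases j <;> simp
  · intro M hM
    apply sl2_gen
    · intro t
      apply hM (xx t) 1
      rw [pow_one]
      apply pow_of_fix hu0
      rw [xx_coe]
      ext i
      fin_cases i <;> simp [Matrix.mulVec, dotProduct, Fin.sum_univ_two]
    · intro t
      apply hM (yy t) 1
      rw [pow_one]
      apply pow_of_fix hv0
      rw [yy_coe]
      ext i
      fin_cases i <;> simp [Matrix.mulVec, dotProduct, Fin.sum_univ_two]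

end Cfsg.Agent.R1T
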