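import Cfsg.Agent.R1T.Action
import Cfsg.Agent.H38.PSU3
import Cfsg.Agent.Uni.Simple
set_option autoImplicit false
set_option linter.all false

namespace Cfsg.Agent.R1T

open Matrix Cfsg Cfsg.Agent.Uni Cfsg.Agent.AutPSU Cfsg.Agent.H38.PSU3 MulAction

variable {F : Type*} [Field F] [Fintype F] {q : ℕ}

/-- an element of `SU₃` fixing a hyperbolic pair is trivial -/
theorem su3_fix (hF : Fintype.card F = q ^ 2) {u v : Fin 3 → F} (hv : Hyp q u v)
    {k : SU 3 F q} (hu : act k u = u) (hkv : act k v = v) : k = 1 := by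
  have hfr : Module.finrank F (perp q (Submodule.span F {u, v})) = 1 := hv.finrank_perp hF
  obtain ⟨⟨z, hz⟩, hz0, hzs⟩ := finrank_eq_one_iff'.1 hfr
  have hz0' : z ≠ 0 := fun h => hz0 (Subtype.ext h)
  obtain ⟨hzu, hzv⟩ := (Hyp.mem_perp_iff hF).1 hz
  have hkz : act k z ∈ perp q (Submodule.span F {u, v}) := by
    rw [Hyp.mem_perp_iff hF]
    constructor
    · rw [← hu, act_form, hzu]
    · rw [← hkv, act_form, hzv]
  obtain ⟨c, hc⟩ := hzs ⟨_, hkz⟩
  have hc' : c • z = act k z := congrArg Subtype.val hc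
  -- determinant
  have h3 : c = 1 := by
    set B : Matrix (Fin 3) (Fin 3) F := (Matrix.of ![u, v, z])ᵀ with hB
    have hBv : ∀ a : Fin 3 → F, B *ᵥ a = a 0 • u + a 1 • v + a 2 • z := by
      intro a
      ext i
      simp [hB, Matrix.mulVec, dotProduct, Fin.sum_univ_three, mul_comm]
    have hBdet : B.det ≠ 0 := by
      intro h0
      obtain ⟨a, ha, ha0⟩ := Matrix.exists_mulVec_eq_zero_iff.2 h0
      rw [hBv] at ha0
      apply ha
      have e1 := congrArg (fun x => hermForm 3 F q x v) ha0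
      simp only [hermForm_add_left, hermForm_smul_left, hv.2.2, hv.2.1, hzv, hermForm_zero_left] at e1
      have e2 := congrArg (fun x => hermForm 3 F q x u) ha0
      simp only [hermForm_add_left, hermForm_smul_left, hv.1, (hv.symm hF).2.2, hzu, hermForm_zero_left] at e2
      have a0 : a 0 = 0 := by linear_combination e1
      have a1 : a 1 = 0 := by linear_combination e2
      rw [a0, a1, zero_smul, zero_smul, zero_add, zero_add] at ha0
      have a2 : a 2 = 0 := (smul_eq_zero.1 ha0).resolve_right hz0'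
      ext i
      fin_cases i
      · exact a0
      · exact a1
      · exact a2
    have h1 : ((k : Matrix.SpecialLinearGroup (Fin 3) F) : Matrix (Fin 3) (Fin 3) F) * B =
        B * Matrix.diagonal ![1, 1, c] := by
      apply Matrix.ext_of_mulVec_single
      intro i
      rw [← Matrix.mulVec_mulVec, ← Matrix.mulVec_mulVec, hBv, hBv]
      have e : ∀ x, (((k : Matrix.SpecialLinearGroup (Fin 3) F) : Matrix (Fin 3) (Fin 3) F)) *ᵥ x = act k x := fun x => rfl
      rw [e, act_add, act_add, act_smul, act_smul, act_smul, hu, hkv, ← hc']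
      fin_cases i <;> simp [Matrix.mulVec_diagonal]
    have h2 := congrArg Matrix.det h1
    rw [Matrix.det_mul, Matrix.det_mul, Matrix.SpecialLinearGroup.det_coe, Matrix.det_diagonal, one_mul,
      Fin.prod_univ_three] at h2
    simp only [Matrix.cons_val_zero, Matrix.cons_val_one, Matrix.cons_val_two, one_mul] at h2
    have h4 : B.det * (c - 1) = 0 := by
      have : B.det = B.det * c := by simpa using h2
      linear_combination -this
    exact sub_eq_zero.1 ((mul_eq_zero.1 h4).resolve_left hBdet)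
  apply act_ext
  intro x
  obtain ⟨x', hx'u, hx'v, e⟩ := decomp hF hv x
  obtain ⟨d, hd⟩ := hzs ⟨x', (Hyp.mem_perp_iff hF).2 ⟨hx'u, hx'v⟩⟩
  have hd' : d • z = x' := congrArg Subtype.val hd
  rw [act_one]
  conv_lhs => rw [e]
  conv_rhs => rw [e]
  rw [act_add, act_add, act_smul, act_smul, hu, hkv, ← hd', act_smul, ← hc', h3, one_smul]

/-- the stabilizer of an isotropic vector is the root group -/
theorem mem_RR_of_fix (hF : Fintype.card F = q ^ 2) {u : Fin 3 → F}
    (hu : Iso q u) {g : SU 3 F q} (hgu : act g u = u) : g ∈ RR hF hu := by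
  obtain ⟨v, hv⟩ := exists_hyp' hF hu.1 hu.2
  set v' := act g v with hv'
  have hv'1 : hermForm 3 F q v' v' = 0 := by rw [hv', act_form, hv.2.1]
  have huv' : hermForm 3 F q u v' = 1 := by
    have : hermForm 3 F q u v' = hermForm 3 F q (act g u) (act g v) := by rw [hgu]
    rw [this, act_form, hv.2.2]
  have hvu : hermForm 3 F q v u = 1 := (hv.symm hF).2.2
  have huw : hermForm 3 F q u (v' - v) = 0 := by
    rw [hermForm_sub_right hF, huv', hv.2.2, sub_self]
  have hs : hermForm 3 F q v v' + (hermForm 3 F q v v') ^ q = -hermForm 3 F q (v' - v) (v' - v) := by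
    rw [hermForm_sub_left, hermForm_sub_right hF, hermForm_sub_right hF, hv'1, hv.2.1, hermForm_symm hF]
    ring
  obtain ⟨h, hh⟩ := exists_eich hF u (v' - v) _ hu.2 huw hs
  have hhR : h ∈ RR hF hu := ⟨_, _, huw, hs, hh⟩
  have hhv : act h v = v' := by
    rw [hh v, hvu, hermForm_sub_right hF, hv.2.1]
    module
  have hhu : act h u = u := by
    rw [hh u, hu.2, huw]
    simp
  have h1 := su3_fix hF hv (k := h⁻¹ * g) (by
      rw [act_mul, hgu]
      have h := act_inv_act h u
      rwa [hhu] at h) (by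
    rw [act_mul, ← hv', ← hhv, act_inv_act])
  rw [← inv_mul_eq_one.1 h1]
  exact hhR

/-- orthogonal isotropic vectors in dimension three are parallel -/
theorem par_of_orth (hF : Fintype.card F = q ^ 2) {u w : Fin 3 → F} (hu : Iso q u) (hw : Iso q w)
    (h0 : hermForm 3 F q u w = 0) : ∃ c : F, c ≠ 0 ∧ w = c • u := by
  obtain ⟨v, hv⟩ := exists_hyp' hF hu.1 hu.2
  have h1 : w - (hermForm 3 F q w v) • u = 0 := by
    apply eq_zero_of_perp hF hv
    · rw [hermForm_sub_left, hermForm_smul_left, hu.2, (hermForm_eq_zero_comm hF).1 h0]; ring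
    · rw [hermForm_sub_left, hermForm_smul_left, hv.2.2]; ring
    · rw [hermForm_sub_left, hermForm_sub_right hF, hermForm_sub_right hF, hermForm_smul_left,
        hermForm_smul_left, hermForm_smul_right, hermForm_smul_right, hu.2, h0,
        (hermForm_eq_zero_comm hF).1 h0, hw.2]
      ring
  rw [sub_eq_zero] at h1
  refine ⟨_, ?_, h1⟩
  intro hc
  rw [hc, zero_smul] at h1
  exact hw.1 h1

/-- scaling a nonorthogonal isotropic vector -/
theorem exists_scale (hF : Fintype.card F = q ^ 2) {u w : Fin 3 → F} (hu : Iso q u) (hw : Iso q w)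
    (h0 : hermForm 3 F q u w ≠ 0) : ∃ d : F, d ≠ 0 ∧ Hyp q u (d • w) := by
  refine ⟨((hermForm 3 F q u w)⁻¹) ^ q, pow_ne_zero _ (inv_ne_zero h0), hu.2, ?_, ?_⟩
  · rw [hermForm_smul_left, hermForm_smul_right, hw.2]; ring
  · rw [hermForm_smul_right, pow_q_pow_q hF, inv_mul_cancel₀ h0]

/-- the torus element -/
theorem exists_torus (hF : Fintype.card F = q ^ 2) {u v : Fin 3 → F} (hv : Hyp q u v) (h2 : (2 : F) ≠ 0) :
    ∃ h : SU 3 F q, act h u = (2 : F) • u ∧ act h v = (2 : F)⁻¹ • v ∧
      ∀ z, hermForm 3 F q z u = 0 → hermForm 3 F q z v = 0 → act h z = z := by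
  obtain ⟨ε, hε0, hε⟩ := exists_skew (F := F) hF
  have hq2 : (2 : F) ^ q = 2 := by
    have hadd := add_pow_q hF (1 : F) (1 : F)
    rw [one_pow] at hadd
    norm_num at hadd
    exact hadd
  have hvu := (hv.symm hF).2.2
  -- transvections
  have hTu : ∀ s : F, s ^ q = -s → ∃ g : SU 3 F q, ∀ x, act g x = x + (s * hermForm 3 F q x u) • u := by
    intro s hs
    obtain ⟨g, hg⟩ := exists_eich hF u 0 s hv.1 (hermForm_zero_right hF u) (by
      rw [hs, hermForm_zero_left]; ring)
    exact ⟨g, (isEich_zero_iff hF g u s).1 hg⟩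
  have hTv : ∀ s : F, s ^ q = -s → ∃ g : SU 3 F q, ∀ x, act g x = x + (s * hermForm 3 F q x v) • v := by
    intro s hs
    obtain ⟨g, hg⟩ := exists_eich hF v 0 s hv.2.1 (hermForm_zero_right hF v) (by
      rw [hs, hermForm_zero_left]; ring)
    exact ⟨g, (isEich_zero_iff hF g v s).1 hg⟩
  obtain ⟨g1, hg1⟩ := hTu (2 * ε) (by rw [mul_pow, hq2, hε]; ring)
  obtain ⟨g2, hg2⟩ := hTv (-(2 * ε)⁻¹) (by
    rw [neg_pow_q hF, inv_pow, mul_pow, hq2, hε, mul_neg, inv_neg])
  obtain ⟨g3, hg3⟩ := hTu ε hε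
  obtain ⟨g4, hg4⟩ := hTv ε⁻¹ (by rw [inv_pow, hε, inv_neg])
  obtain ⟨g5, hg5⟩ := hTu (-ε) (by rw [neg_pow_q hF, hε])
  refine ⟨g1 * g2 * g3 * g4 * g5, ?_, ?_, ?_⟩
  · have e5 : act g5 u = u := by rw [hg5, hv.1]; simp
    have e4 : act g4 u = u + ε⁻¹ • v := by rw [hg4, hv.2.2, mul_one]
    have e3 : act g3 (u + ε⁻¹ • v) = (2 : F) • u + ε⁻¹ • v := by
      rw [hg3, hermForm_add_left, hermForm_smul_left, hv.1, hvu, zero_add, mul_one, mul_inv_cancel₀ hε0]
      module
    have e2 : act g2 ((2 : F) • u + ε⁻¹ • v) = (2 : F) • u := by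
      rw [hg2, hermForm_add_left, hermForm_smul_left, hermForm_smul_left, hv.2.2, hv.2.1, mul_one, mul_zero, add_zero]
      have : -(2 * ε)⁻¹ * 2 = -ε⁻¹ := by field_simp
      rw [this]; module
    have e1 : act g1 ((2 : F) • u) = (2 : F) • u := by
      rw [hg1, hermForm_smul_left, hv.1]; simp
    rw [act_mul, act_mul, act_mul, act_mul, e5, e4, e3, e2, e1]
  · have e5 : act g5 v = v + (-ε) • u := by rw [hg5, hvu, mul_one]
    have e4 : act g4 (v + (-ε) • u) = (-ε) • u := by
      rw [hg4, hermForm_add_left, hermForm_smul_left, hv.2.1, hv.2.2, zero_add, mul_one]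
      have : ε⁻¹ * -ε = -1 := by field_simp
      rw [this]; module
    have e3 : act g3 ((-ε) • u) = (-ε) • u := by
      rw [hg3, hermForm_smul_left, hv.1]; simp
    have e2 : act g2 ((-ε) • u) = (-ε) • u + (2 : F)⁻¹ • v := by
      rw [hg2, hermForm_smul_left, hv.2.2, mul_one]
      have : -(2 * ε)⁻¹ * -ε = (2 : F)⁻¹ := by field_simp
      rw [this]
    have e1 : act g1 ((-ε) • u + (2 : F)⁻¹ • v) = (2 : F)⁻¹ • v := by
      rw [hg1, hermForm_add_left, hermForm_smul_left, hermForm_smul_left, hv.1, hvu, mul_zero, zero_add, mul_one]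
      have : 2 * ε * (2 : F)⁻¹ = ε := by field_simp
      rw [this]; module
    rw [act_mul, act_mul, act_mul, act_mul, e5, e4, e3, e2, e1]
  · intro z hzu hzv
    have e1 : act g1 z = z := by rw [hg1, hzu]; simp
    have e2 : act g2 z = z := by rw [hg2, hzv]; simp
    have e3 : act g3 z = z := by rw [hg3, hzu]; simp
    have e4 : act g4 z = z := by rw [hg4, hzv]; simp
    have e5 : act g5 z = z := by rw [hg5, hzu]; simp
    rw [act_mul, act_mul, act_mul, act_mul, e5, e4, e3, e2, e1]

theorem two_pow_char {F : Type*} [Field F] {p : ℕ} [hp : Fact p.Prime] [CharP F p] (hp5 : 5 ≤ p) :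
    (2 : F) ^ (p - 1) = 1 ∧ (2 : F) ≠ 0 ∧ (3 : F) ≠ 0 := by
  have hne : ∀ n : ℕ, 0 < n → n < p → (n : F) ≠ 0 := by
    intro n hn hnp h
    rw [CharP.cast_eq_zero_iff F p] at h
    exact absurd (Nat.le_of_dvd hn h) (by omega)
  have h2 : (2 : F) ≠ 0 := by exact_mod_cast hne 2 (by omega) (by omega)
  have h3 : (3 : F) ≠ 0 := by exact_mod_cast hne 3 (by omega) (by omega)
  refine ⟨?_, h2, h3⟩
  have h1 : (2 : ZMod p) ≠ 0 := by
    intro h
    have : ((2 : ℕ) : ZMod p) = 0 := by exact_mod_cast h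
    rw [ZMod.natCast_eq_zero_iff] at this
    exact absurd (Nat.le_of_dvd (by norm_num) this) (by omega)
  have h4 := ZMod.pow_card_sub_one_eq_one h1
  have h5 := congrArg (ZMod.castHom (dvd_refl p) F) h4
  rw [map_pow, map_one] at h5
  have h6 : ZMod.castHom (dvd_refl p) F 2 = 2 := map_ofNat _ 2
  rwa [h6] at h5

/-- **rank one data for `SU₃(q)`** -/
theorem r1_su3 (hF : Fintype.card F = q ^ 2) {p : ℕ} [hp : Fact p.Prime] [CharP F p] (hp5 : 5 ≤ p) :
    R1 p (SU 3 F q) := by
  obtain ⟨h2p, h2, h3⟩ := two_pow_char (F := F) (p := p) hp5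
  have hpq : p ∣ q := dvd_q hF
  have hq2 : q ≠ 2 := by
    rintro rfl
    exact absurd (Nat.le_of_dvd (by norm_num) hpq) (by omega)
  letI a1 : MulAction (SU 3 F q) {v : Fin 3 → F // Iso q v} :=
    { smul := fun g v => ⟨act g v, v.2.act g⟩
      one_smul := fun _ => Subtype.ext (act_one _)
      mul_smul := fun _ _ _ => Subtype.ext (act_mul _ _ _) }
  letI a2 : MulAction Fˣ {v : Fin 3 → F // Iso q v} :=
    { smul := fun k v => ⟨(k : F) • (v : Fin 3 → F), smul_ne_zero k.ne_zero v.2.1, by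
        rw [hermForm_smul_left, hermForm_smul_right, v.2.2]; ring⟩
      one_smul := fun v => Subtype.ext (by
        show ((1 : Fˣ) : F) • (v : Fin 3 → F) = v
        rw [Units.val_one, one_smul])
      mul_smul := fun k l v => Subtype.ext (by
        show ((k * l : Fˣ) : F) • (v : Fin 3 → F) = (k : F) • ((l : F) • (v : Fin 3 → F))
        rw [Units.val_mul, mul_smul]) }
  have e1 : ∀ (g : SU 3 F q) (w : {v : Fin 3 → F // Iso q v}), ((g • w : {v : Fin 3 → F // Iso q v}) : Fin 3 → F) = act g w :=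
    fun _ _ => rfl
  have e2 : ∀ (k : Fˣ) (w : {v : Fin 3 → F // Iso q v}), ((k • w : {v : Fin 3 → F // Iso q v}) : Fin 3 → F) = (k : F) • (w : Fin 3 → F) :=
    fun _ _ => rfl
  haveI a3 : SMulCommClass (SU 3 F q) Fˣ {v : Fin 3 → F // Iso q v} := ⟨fun g k w => Subtype.ext (by
    rw [e1, e2, e2, e1, act_smul])⟩
  haveI : Finite (SU 3 F q) := inferInstance
  obtain ⟨u, hu0, hu⟩ := exists_isotropic (F := F) (n := 3) hF (by omega)
  obtain ⟨v, hv⟩ := exists_hyp' hF hu0 hu
  have hv0 : v ≠ 0 := (hv.symm hF).left_ne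
  obtain ⟨h, hhu, hhv, hhz⟩ := exists_torus hF hv h2
  have hvu := (hv.symm hF).2.2
  refine R1.of_action (Γ := SU 3 F q) (Ω := {v : Fin 3 → F // Iso q v}) (K := Fˣ) (p := p)
    (not_dvd_card_iso hF (by omega) hpq) ?_ ?_ ⟨u, hu0, hu⟩ ⟨v, hv0, hv.2.1⟩ ?_ ?_ ?_ ?_ h (Units.mk0 2 h2)
    (Units.mk0 2⁻¹ (inv_ne_zero h2)) ?_ ?_ ?_ ?_ ?_
  · intro k w hk
    have h4 := congrArg Subtype.val hk
    rw [e2] at h4
    have h5 : ((k : F) - 1) • (w : Fin 3 → F) = 0 := by rw [sub_smul, one_smul, h4, sub_self]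
    exact Units.ext (sub_eq_zero.1 ((smul_eq_zero.1 h5).resolve_right w.2.1))
  · rintro w ⟨g, hg⟩
    have h4 : act g (w : Fin 3 → F) = w := congrArg Subtype.val hg
    have h5 := mem_RR_of_fix hF w.2 h4
    obtain ⟨k, hk⟩ := RR_isPGroup (p := p) hF w.2 ⟨g, h5⟩
    have hk' : g ^ p ^ k = 1 := congrArg Subtype.val hk
    exact ⟨k, Subtype.ext hk'⟩
  · intro w
    obtain ⟨ε, hε0, hε⟩ := exists_skew (F := F) hF
    obtain ⟨g, hg⟩ := exists_eich hF (w : Fin 3 → F) 0 ε w.2.2 (hermForm_zero_right hF _) (by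
      rw [hε, hermForm_zero_left]; ring)
    have hg' := (isEich_zero_iff hF g _ ε).1 hg
    obtain ⟨v', hv'⟩ := exists_hyp' hF w.2.1 w.2.2
    refine ⟨g, ?_, Subtype.ext ?_⟩
    · rintro rfl
      have h4 := hg' v'
      rw [act_one, (hv'.symm hF).2.2, mul_one] at h4
      have h5 : ε • (w : Fin 3 → F) = 0 := by
        have := h4.symm
        rwa [add_eq_left] at this
      rcases smul_eq_zero.1 h5 with h6 | h6
      · exact hε0 h6
      · exact w.2.1 h6
    · rw [e1, hg', w.2.2]; simp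
  · intro g hg1 w w' hw hw'
    have h4 : act g (w : Fin 3 → F) = w := congrArg Subtype.val hw
    have h5 : act g (w' : Fin 3 → F) = w' := congrArg Subtype.val hw'
    by_cases h0 : hermForm 3 F q w w' = 0
    · obtain ⟨c, hc0, hc⟩ := par_of_orth hF w.2 w'.2 h0
      exact ⟨Units.mk0 c hc0, Subtype.ext hc⟩
    · exfalso
      obtain ⟨d, hd0, hd⟩ := exists_scale hF w.2 w'.2 h0
      exact hg1 (su3_fix hF hd h4 (by rw [act_smul, h5]))
  · intro w
    by_cases h0 : hermForm 3 F q u w = 0
    · obtain ⟨c, hc0, hc⟩ := par_of_orth hF ⟨hu0, hu⟩ w.2 h0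
      exact Or.inl ⟨Units.mk0 c hc0, Subtype.ext hc⟩
    · obtain ⟨d, hd0, hd⟩ := exists_scale hF ⟨hu0, hu⟩ w.2 h0
      obtain ⟨g, hg, hg'⟩ := exists_move_opposite hF hv hd
      exact Or.inr ⟨Units.mk0 d hd0, g, Subtype.ext hg, Subtype.ext hg'⟩
  · intro g k hgu hgv
    have h4 : act g u = u := congrArg Subtype.val hgu
    have h5 : act g v = (k : F) • v := congrArg Subtype.val hgv
    have h6 : (k : F) ^ q = 1 := by
      have := act_form g u v
      rw [h4, h5, hermForm_smul_right, hv.2.2, mul_one] at this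
      exact this
    have h7 : (k : F) = 1 := by
      rw [← pow_q_pow_q hF (k : F), h6, one_pow]
    rw [h7, one_smul] at h5
    exact su3_fix hF hv h4 h5
  · exact Subtype.ext hhu
  · exact Subtype.ext hhv
  · apply Units.ext
    rw [Units.val_pow_eq_pow_val, Units.val_mk0, h2p, Units.val_one]
  · intro g hgu hgh
    have h4 : act g u = u := congrArg Subtype.val hgu
    have h5 : act h (act g v) = (2 : F)⁻¹ • act g v := by
      rw [← act_mul, hgh, act_mul, hhv, act_smul]
    obtain ⟨x', hx'u, hx'v, e⟩ := decomp hF hv (act g v)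
    have h6 : hermForm 3 F q (act g v) u = 1 := by
      have := act_form g v u
      rw [h4, hvu] at this
      exact this
    rw [h6, one_smul] at e
    set t := hermForm 3 F q (act g v) v with ht
    have h7 : act h (act g v) = (2 * t) • u + (2 : F)⁻¹ • v + x' := by
      conv_lhs => rw [e]
      rw [act_add, act_add, act_smul, hhu, hhv, hhz x' hx'u hx'v, smul_smul, mul_comm t 2]
    rw [h7] at h5
    have h8 := congrArg (fun x => hermForm 3 F q x v) h5
    simp only [hermForm_add_left, hermForm_smul_left, hv.2.2, hv.2.1, hx'v] at h8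
    rw [← ht] at h8
    have h9 : t = 0 := by
      have : 3 * t = 0 := by
        have h10 : 2 * (2 * t) = t := by
          have := congrArg (fun x => 2 * x) h8
          simp only [mul_one, mul_zero, add_zero] at this
          rw [mul_inv_cancel_left₀ h2] at this
          exact this
        linear_combination h10
      exact (mul_eq_zero.1 this).resolve_left h3
    rw [h9, zero_smul, zero_add] at e
    have h10 : x' = 0 := by
      have h11 := h5
      rw [h9, mul_zero, zero_smul, zero_add, e, smul_add] at h11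
      have h12 : x' = (2 : F)⁻¹ • x' := add_left_cancel h11
      have h13 : (1 - (2 : F)⁻¹) • x' = 0 := by rw [sub_smul, one_smul, ← h12, sub_self]
      rcases smul_eq_zero.1 h13 with h14 | h14
      · exfalso
        have : (1 : F) = 0 := by
          have h15 := congrArg (fun x => 2 * x) h14
          simp only [mul_sub, mul_one, mul_zero, mul_inv_cancel₀ h2] at h15
          linear_combination h15
        exact one_ne_zero this
      · exact h14
    rw [h10, add_zero] at e
    exact su3_fix hF hv h4 e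
  · intro M hM
    rw [eq_top_iff, ← TT_eq_top (F := F) (q := q) (n := 3) hF (by omega) (by omega), TT, Subgroup.closure_le]
    rintro g ⟨w, c, hw, hg⟩
    have hg' := (isEich_zero_iff_matrix hF g w c).2 hg
    by_cases hw0 : w = 0
    · have : g = 1 := by
        apply act_ext
        intro x
        rw [(isEich_zero_iff hF g w c).1 hg', hw0, act_one]
        simp
      rw [this]
      exact one_mem _
    · have h4 : act g w = w := by
        rw [(isEich_zero_iff hF g w c).1 hg', hw]; simp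
      obtain ⟨k, hk⟩ := RR_isPGroup (p := p) hF ⟨hw0, hw⟩ ⟨g, mem_RR_of_fix hF ⟨hw0, hw⟩ h4⟩
      exact hM g k (congrArg Subtype.val hk)

end Cfsg.Agent.R1T
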